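import Groth.Prelude.Def_PCone
import Mathlib.AlgebraicGeometry.Morphisms.Affine
import Mathlib.AlgebraicGeometry.Morphisms.UnderlyingMap

/-!
# The domain `G(φ)` of the rational map of `Proj`s attached to a graded homomorphism `φ : 𝒜 →+*ᵍ ℬ`

The charts `Spec ℬ_(φ f) ⟶ G(φ)` cover; the induced morphism `p : G(φ) ⟶ Proj 𝒜` satisfies
`p⁻¹(D_+(g)) = D_+(φ g)`; it is affine.
-/

set_option autoImplicit false
universe u
open CategoryTheory CategoryTheory.Limits AlgebraicGeometry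

namespace Groth.Agent.Ega2.H299.DomBasic

variable {R A : Type u} [CommRing R] [CommRing A] [Algebra R A] {𝒜 : ℕ → Submodule R A} [GradedAlgebra 𝒜]
    {B : Type u} [CommRing B] [Algebra R B] {ℬ : ℕ → Submodule R B} [GradedAlgebra ℬ] (φ : 𝒜 →+*ᵍ ℬ)

@[reassoc]
lemma chart_ι {d : ℕ} {f : A} (hf : f ∈ 𝒜 d) (hd : 0 < d) :
    PCone.chart φ hf hd ≫ (PCone.dom φ).ι = Proj.awayι ℬ (φ f) (φ.2 hf) hd :=
  IsOpenImmersion.lift_fac _ _ _

instance isOpenImmersion_chart {d : ℕ} {f : A} (hf : f ∈ 𝒜 d) (hd : 0 < d) :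
    IsOpenImmersion (PCone.chart φ hf hd) := by
  have h1 : IsOpenImmersion (PCone.chart φ hf hd ≫ (PCone.dom φ).ι) := by
    rw [chart_ι φ hf hd]; infer_instance
  exact IsOpenImmersion.of_comp _ (PCone.dom φ).ι

lemma opensRange_chart {d : ℕ} {f : A} (hf : f ∈ 𝒜 d) (hd : 0 < d) :
    (PCone.chart φ hf hd).opensRange = (PCone.dom φ).ι ⁻¹ᵁ Proj.basicOpen ℬ (φ f) := by
  ext x
  constructor
  · rintro ⟨y, rfl⟩
    change (PCone.dom φ).ι.base ((PCone.chart φ hf hd).base y) ∈ Proj.basicOpen ℬ (φ f)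
    rw [← Proj.opensRange_awayι ℬ (φ f) (φ.2 hf) hd]
    refine ⟨y, ?_⟩
    have := congrArg (fun g => g.base y) (chart_ι φ hf hd)
    exact this.symm
  · intro hx
    have hx' : (PCone.dom φ).ι.base x ∈ Proj.basicOpen ℬ (φ f) := hx
    rw [← Proj.opensRange_awayι ℬ (φ f) (φ.2 hf) hd] at hx'
    obtain ⟨y, hy⟩ := hx'
    refine ⟨y, ?_⟩
    apply (PCone.dom φ).ι.isOpenEmbedding.injective
    have := congrArg (fun g => g.base y) (chart_ι φ hf hd)
    exact this.trans hy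

/-- Every point of `G(φ)` lies in one of the charts. -/
lemma exists_chart_eq (x : (PCone.dom φ : Scheme.{u})) :
    ∃ (d : ℕ) (f : A) (hd : 0 < d) (hf : f ∈ 𝒜 d)
      (y : Spec (CommRingCat.of (HomogeneousLocalization.Away ℬ (φ f)))),
      (PCone.chart φ hf hd).base y = x := by
  have hx : (PCone.dom φ).ι.base x ∈ PCone.dom φ := x.2
  obtain ⟨⟨f, d, hd, hf⟩, hx⟩ := TopologicalSpace.Opens.mem_iSup.mp hx
  refine ⟨d, f, hd, hf, ?_⟩
  have : x ∈ (PCone.chart φ hf hd).opensRange := by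
    rw [opensRange_chart]; exact hx
  exact this

section retraction

variable {φ}
variable {p : (PCone.dom φ : Scheme.{u}) ⟶ Proj 𝒜}
    (hp : ∀ (d : ℕ) (f : A) (hd : 0 < d) (hf : f ∈ 𝒜 d),
        PCone.chart φ hf hd ≫ p =
          Spec.map (CommRingCat.ofHom (HomogeneousLocalization.Away.map φ f)) ≫ Proj.awayι 𝒜 f hf hd)

include hp

/-- `p⁻¹(D_+(g)) = D_+(φ g)` for `g` homogeneous of positive degree. -/
lemma preimage_basicOpen {e : ℕ} {g : A} (he : 0 < e) (hg : g ∈ 𝒜 e) :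
    p ⁻¹ᵁ Proj.basicOpen 𝒜 g = (PCone.dom φ).ι ⁻¹ᵁ Proj.basicOpen ℬ (φ g) := by
  ext x
  obtain ⟨d, f, hd, hf, y, rfl⟩ := exists_chart_eq φ x
  change p.base ((PCone.chart φ hf hd).base y) ∈ Proj.basicOpen 𝒜 g ↔
    (PCone.dom φ).ι.base ((PCone.chart φ hf hd).base y) ∈ Proj.basicOpen ℬ (φ g)
  have h1 : p.base ((PCone.chart φ hf hd).base y) = (Proj.awayι 𝒜 f hf hd).base
      ((Spec.map (CommRingCat.ofHom (HomogeneousLocalization.Away.map φ f))).base y) :=
    congrArg (fun g => g.base y) (hp d f hd hf)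
  have h2 : (PCone.dom φ).ι.base ((PCone.chart φ hf hd).base y) =
      (Proj.awayι ℬ (φ f) (φ.2 hf) hd).base y :=
    congrArg (fun g => g.base y) (chart_ι φ hf hd)
  rw [h1, h2]
  have h3 : (Proj.awayι 𝒜 f hf hd).base
      ((Spec.map (CommRingCat.ofHom (HomogeneousLocalization.Away.map φ f))).base y) ∈
        Proj.basicOpen 𝒜 g ↔
      ((Spec.map (CommRingCat.ofHom (HomogeneousLocalization.Away.map φ f))).base y) ∈
        (PrimeSpectrum.basicOpen (HomogeneousLocalization.Away.isLocalizationElem hf hg) :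
          TopologicalSpace.Opens (PrimeSpectrum (HomogeneousLocalization.Away 𝒜 f))) := by
    rw [← Proj.awayι_preimage_basicOpen 𝒜 hf hd hg he]
    rfl
  have h4 : (Proj.awayι ℬ (φ f) (φ.2 hf) hd).base y ∈ Proj.basicOpen ℬ (φ g) ↔
      y ∈ (PrimeSpectrum.basicOpen (HomogeneousLocalization.Away.isLocalizationElem
          (φ.2 hf : φ f ∈ ℬ d) (φ.2 hg : φ g ∈ ℬ e)) :
          TopologicalSpace.Opens (PrimeSpectrum (HomogeneousLocalization.Away ℬ (φ f)))) := by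
    rw [← Proj.awayι_preimage_basicOpen ℬ (φ.2 hf) hd (φ.2 hg) he]
    rfl
  rw [h3, h4]
  change (HomogeneousLocalization.Away.map φ f)
      (HomogeneousLocalization.Away.isLocalizationElem hf hg) ∉ y.asIdeal ↔
    HomogeneousLocalization.Away.isLocalizationElem (φ.2 hf : φ f ∈ ℬ d) (φ.2 hg : φ g ∈ ℬ e) ∉ y.asIdeal
  have h5 : (HomogeneousLocalization.Away.map φ f)
      (HomogeneousLocalization.Away.isLocalizationElem hf hg) =
      HomogeneousLocalization.Away.isLocalizationElem (φ.2 hf : φ f ∈ ℬ d) (φ.2 hg : φ g ∈ ℬ e) := by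
    rw [HomogeneousLocalization.Away.map_mk]
    ext
    simp [HomogeneousLocalization.Away.isLocalizationElem]
  rw [h5]

lemma isAffineHom : IsAffineHom p := by
  apply isAffineHom_of_forall_exists_isAffineOpen
  intro z
  obtain ⟨j, y, hy⟩ := (Proj.affineOpenCover 𝒜).openCover.exists_eq z
  refine ⟨Proj.basicOpen 𝒜 (j.2 : A), ?_, Proj.isAffineOpen_basicOpen 𝒜 _ j.2.2 j.1.2, ?_⟩
  · rw [← Proj.opensRange_awayι 𝒜 _ j.2.2 j.1.2]
    exact ⟨y, hy⟩
  · rw [preimage_basicOpen hp j.1.2 j.2.2, ← opensRange_chart φ j.2.2 j.1.2]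
    exact isAffineOpen_opensRange (PCone.chart φ j.2.2 j.1.2)

end retraction

end Groth.Agent.Ega2.H299.DomBasic
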